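import Cfsg.Agent.Blk.KerOn

/-!
# Blocks of defect zero of groups with a big cell
-/

set_option autoImplicit false
set_option linter.unusedSectionVars false

namespace Cfsg.GA

open MonoidAlgebra Subgroup

universe u v w

variable {k : Type w} [Field k] {p : ℕ} [Fact p.Prime] [CharP k p] {G : Type u} [Group G]
  [Finite G] {A H U V T X : Subgroup G} {g w x : G}

theorem single_mul_one (x y : G) : single (x * y) (1 : k) = single x 1 * single y 1 := by
  rw [single_mul_single, mul_one]

theorem single_mul_subSum (h : x ∈ H) : single x 1 * subSum k H = subSum k H := kerOn_subSum H x h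

theorem single_mul_subSum_conj (h : ∀ x, x ∈ V ↔ g⁻¹ * x * g ∈ U) :
    single g 1 * subSum k U = subSum k V * single g 1 := by
  rw [← cj_mul_single, cj_subSum]
  congr 2
  exact Subgroup.ext fun x => mem_cjS.trans (h x).symm

theorem single_mul_subSum_comm (h : g ∈ normalizer (U : Set G)) :
    single g 1 * subSum k U = subSum k U * single g 1 :=
  single_mul_subSum_conj (mem_normalizer_iff''.1 h)

theorem subSum_mul_single (h : x ∈ H) : subSum k H * single x 1 = subSum k H := by
  rw [← single_mul_subSum_comm (le_normalizer h), single_mul_subSum h]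

theorem subSum_mul_comm (h : X ≤ normalizer (U : Set G)) :
    subSum k X * subSum k U = subSum k U * subSum k X :=
  (mul_comm_of_fixedBy_of_suppIn (fixedBy_anti h (subSum_mem_fixedBy U))
    (subSum_mem_suppIn X)).symm

theorem subSum_eq_mul (hA : A ≤ H) (hX : X ≤ H) (hd : ∀ x ∈ A, x ∈ X → x = 1)
    (hc : ∀ h ∈ H, ∃ x ∈ X, h * x⁻¹ ∈ A) : subSum k H = subSum k A * subSum k X := by
  classical
  haveI := Fintype.ofFinite G
  refine ext_coeff fun g => ?_
  rw [coeff_subSum_mul, coeff_subSum]
  split_ifs with h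
  · obtain ⟨x, hx, h1⟩ := hc g h
    rw [Finset.sum_eq_single x, coeff_subSum, if_pos hx]
    · intro y hy hne
      rw [coeff_subSum, if_neg fun hy' => hne (mul_inv_eq_one.1 (hd _ ?_ (mul_mem hx (inv_mem hy')))).symm]
      simpa [mul_assoc] using mul_mem (inv_mem h1) (Finset.mem_filter.1 hy).2
    · simp [h1]
  · refine (Finset.sum_eq_zero fun y hy => ?_).symm
    rw [coeff_subSum, if_neg fun hy' => h ?_]
    simpa using mul_mem (hA (Finset.mem_filter.1 hy).2) (hX hy')

theorem subSum_mul_mul_eq_zero (hU : IsPGroup p U) (hx : x ∈ U) (h1 : x ≠ 1)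
    (hV : g * x * g⁻¹ ∈ V) : subSum k V * single g 1 * subSum k U = 0 := by
  haveI := Fintype.ofFinite (zpowers x)
  obtain ⟨y, -, hy⟩ := exists_eq_subSum_mul (P := zpowers x) (mem_suppIn_top (subSum k U))
    fun u hu => single_mul_subSum (zpowers_le.2 hx hu)
  have h2 : ∀ l : zpowers x, subSum k V * single g 1 * single (l : G) 1 =
      subSum k V * single g 1 := by
    rintro ⟨_, n, rfl⟩
    have : g * x ^ n * g⁻¹ ∈ V := by rw [← conj_zpow]; exact zpow_mem hV n
    rw [mul_assoc, single_mul_single, show g * x ^ n = g * x ^ n * g⁻¹ * g by group,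
      ← single_mul_single, ← mul_assoc, subSum_mul_single this]
  have h3 : p ∣ Fintype.card (zpowers x) := by
    rw [← Nat.card_eq_fintype_card]
    refine ((hU.to_le (zpowers_le.2 hx)).card_eq_or_dvd).resolve_left fun e => h1 ?_
    rwa [Subgroup.card_eq_one, zpowers_eq_bot] at e
  rw [← hy, ← mul_assoc, subSum_eq_sum (zpowers x), Finset.mul_sum, Finset.sum_congr rfl fun l _ => h2 l,
    Finset.sum_const, Finset.card_univ, ← Nat.cast_smul_eq_nsmul k, (CharP.cast_eq_zero_iff k p _).2 h3,
    zero_smul, zero_mul]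

theorem coeff_one_mul_comm (a b : k[G]) : (a * b).coeff 1 = (b * a).coeff 1 := by
  haveI := Fintype.ofFinite G
  rw [coeff_mul_fintype, coeff_mul_fintype']
  simp [mul_comm]

theorem exists_inDef_bot {y : k[G]} (h1 : ∀ g, ∃ c : k, y * single g 1 * y = c • y)
    (h2 : y * single w 1 * y ≠ 0) : ∃ e : k[G], IsBlockIdem ⊤ e ∧ InDef p ⊤ ⊥ e := by
  haveI := Fintype.ofFinite G
  haveI := Fintype.ofFinite (⊤ : Subgroup G)
  obtain ⟨a, ha⟩ := h1 w
  have ha0 : a ≠ 0 := fun e => h2 (by rw [ha, e, zero_smul])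
  set ε := a⁻¹ • (y * single w 1) with hε
  have h3 : ε * y = y := by rw [hε, smul_mul_assoc, ha, inv_smul_smul₀ ha0]
  have h4 : ε * ε = ε := by conv_lhs => rw [hε, mul_smul_comm, ← mul_assoc, ← hε, h3, ← hε]
  have h5 : ∀ g, ∃ c : k, ε * single g 1 * ε = c • ε := fun g => by
    obtain ⟨c, hc⟩ := h1 (w * g)
    refine ⟨a⁻¹ * c, ?_⟩
    rw [hε, smul_mul_assoc, smul_mul_assoc, mul_smul_comm, mul_assoc y, single_mul_single, mul_one,
      ← mul_assoc, hc, smul_mul_assoc, smul_smul, smul_smul, smul_smul, mul_right_comm]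
  choose c hc using h5
  have h6 : ∀ g, c g * ε.coeff 1 = ε.coeff g⁻¹ := fun g => by
    have := congrArg (·.coeff 1) (hc g)
    simp only [coeff_one_mul_comm _ ε, ← mul_assoc, h4] at this
    simpa using this.symm
  have h0 : ε ≠ 0 := fun e => h2 (by rw [← h3, e, zero_mul, zero_mul, zero_mul])
  have h7 : ε.coeff 1 ≠ 0 := fun e => h0 (ext_coeff fun g => by
    rw [← inv_inv g, ← h6, e, mul_zero]; rfl)
  set s := ∑ g : (⊤ : Subgroup G), c g * c g⁻¹ with hs
  have h8 : s ≠ 0 := fun e => h7 (by
    have := congrArg (· * (ε.coeff 1 * ε.coeff 1)) e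
    simp only [hs, Finset.sum_mul, zero_mul] at this
    rw [← h4, coeff_mul_fintype', ← this, ← topEquiv.toEquiv.sum_comp]
    refine Finset.sum_congr rfl fun g _ => ?_
    rw [mul_mul_mul_comm, h6, h6]
    simp)
  have hZ : relTr ⊥ ⊤ ε ∈ Zalg k (⊤ : Subgroup G) ⊤ :=
    mem_Zalg_top.2 (relTr_mem_fixedBy (mem_fixedBy_bot _))
  have h9 : relTr ⊥ ⊤ ε * ε = s • ε := by
    have : relTr ⊥ ⊤ ε * ε = ε * relTr ⊥ ⊤ ε * ε := by
      rw [← mul_comm_of_fixedBy_top hZ.2, mul_assoc, h4]
    rw [this, relTr_bot, Finset.mul_sum, Finset.sum_mul, hs, Finset.sum_smul]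
    refine Finset.sum_congr rfl fun g _ => ?_
    rw [cj_eq_mul, ← mul_assoc, ← mul_assoc, hc, smul_mul_assoc, smul_mul_assoc, hc, smul_smul]
  obtain ⟨e, he, h10⟩ := exists_isPrimIdem_mul_ne_zero (Zalg_mul_comm (le_refl (⊤ : Subgroup G))) h0
  refine ⟨e, he, he.inDef_of_not_isNilpotent le_rfl hZ (inDef_relTr (mem_fixedBy_bot _)) ?_⟩
  rintro ⟨n, hn⟩
  have key : ∀ n : ℕ, (relTr ⊥ ⊤ ε * e) ^ n * (e * ε) = s ^ n • (e * ε) := fun n => by
    induction n with
    | zero => simp
    | succ n ih =>
      rw [pow_succ', mul_assoc, ih, mul_smul_comm, mul_assoc, ← mul_assoc e, he.idem, ← mul_assoc,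
        mul_comm_of_fixedBy_top hZ.2, mul_assoc, h9, mul_smul_comm, smul_smul, pow_succ]
  have := key n
  rw [hn, zero_mul, eq_comm, smul_eq_zero] at this
  exact h10 (this.resolve_left (pow_ne_zero n h8))

theorem exists_subSum_mul_eq (hU : IsPGroup p U) {e : k[G]} (he : IsBlockIdem ⊤ e)
    (h : InDef p ⊤ ⊥ e) : subSum k U * e ≠ 0 ∧
      ∃ b, subSum k U * e = subSum k U * b * subSum k U * b * subSum k U := by
  haveI := Fintype.ofFinite U
  obtain ⟨b, -, hb⟩ := InDef.exists_relTr (K := ⊤) (L := U) (D := ⊥) (a := e) (by rw [normalizer_eq_top]; exact le_top) bot_le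
    (Zalg_mono le_rfl le_top he.mem) fun Q _ hQ h0 => by
      obtain ⟨g, -, hg⟩ := h Q le_top hQ h0
      refine ⟨1, one_mem _, fun x hx => ?_⟩
      simpa using hg (mem_cjS'.2 ⟨x, by simpa using hx, rfl⟩)
  rw [relTr_bot] at hb
  have hc := mul_comm_of_fixedBy_top he.mem.2
  have h1 : subSum k U * e = subSum k U * b * subSum k U := by
    conv_lhs => rw [← hb]
    have : subSum k U * b * subSum k U = ∑ u : U, subSum k U * b * single (u : G) 1 := by
      rw [← Finset.mul_sum, ← subSum_eq_sum]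
    rw [this, Finset.mul_sum]
    refine Fintype.sum_equiv (Equiv.inv U) _ _ fun u => ?_
    rw [cj_eq_mul, ← mul_assoc, ← mul_assoc, subSum_mul_single u.2]
    rfl
  refine ⟨fun h0 => ?_, b, ?_⟩
  · letI : DistribMulAction U k[G] := DistribMulAction.compHom _ ((of k G).comp U.subtype)
    obtain ⟨m, hm, hm0, hfix⟩ := exists_fixed_mem_closure_orbit hU (V := k[G]) (fun v => by
      rw [← Nat.cast_smul_eq_nsmul k, CharP.cast_eq_zero, zero_smul]) he.ne_zero
    have h2 : e * m = m := by
      clear hm0 hfix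
      induction hm using AddSubgroup.closure_induction with
      | mem x hx =>
        obtain ⟨u, rfl⟩ := hx
        change e * (single (u : G) 1 * e) = single (u : G) 1 * e
        rw [hc, mul_assoc, he.idem]
      | zero => exact mul_zero _
      | add x y _ _ hx hy => rw [mul_add, hx, hy]
      | neg x _ hx => rw [mul_neg, hx]
    have h3 : e * m = subSum k U * (b * m) := by
      rw [← hb, subSum_eq_sum, Finset.sum_mul, Finset.sum_mul]
      refine Finset.sum_congr rfl fun u _ => ?_
      rw [cj_eq_mul, mul_assoc, mul_assoc, show single (u : G)⁻¹ (1 : k) * m = m from hfix u⁻¹]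
    refine hm0 ?_
    rw [← h2, ← he.idem, mul_assoc, h3, ← mul_assoc, hc, h0, zero_mul]
  · conv_lhs => rw [← he.idem, ← mul_assoc, h1, mul_assoc, h1]
    simp only [mul_assoc]

variable (k p) in
/-- The big cell `V T U` of a group with a split `BN`-pair. -/
structure Cell (U V T : Subgroup G) (w : G) : Prop where
  pU : IsPGroup p U
  wU : ∀ x, x ∈ V ↔ w⁻¹ * x * w ∈ U
  wV : ∀ x, x ∈ U ↔ w⁻¹ * x * w ∈ V
  tU : T ≤ normalizer (U : Set G)
  tV : T ≤ normalizer (V : Set G)
  wtw : ∀ t ∈ T, w * t * w ∈ T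
  cell : ∀ g, (∃ x ∈ U, x ≠ 1 ∧ g * x * g⁻¹ ∈ V) ∨ ∃ v ∈ V, ∃ t ∈ T, ∃ u ∈ U, g = v * t * u
  uniq : ∀ t ∈ T, ∀ v ∈ V, ∀ u ∈ U, t * v * u = 1 → v = 1 ∧ u = 1
  count : ¬ p ∣ Nat.card {x : V // ∃ v ∈ V, ∃ t ∈ T, ∃ u ∈ U, w⁻¹ * x = v * t * u}
  inv : ∀ t ∈ T, single t 1 * (subSum k U * subSum k V * subSum k U) =
    subSum k U * subSum k V * subSum k U

namespace Cell

variable (h : Cell k p U V T w)
include h

theorem mul_mul_of_eq {v t u : G} (hv : v ∈ V) (ht : t ∈ T) (hu : u ∈ U)
    (e : w⁻¹ * g = v * t * u) :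
    subSum k U * single g 1 * subSum k U = single (w * t) 1 * subSum k V * subSum k U := by
  rw [inv_mul_eq_iff_eq_mul.1 e, single_mul_one, ← mul_assoc, ← single_mul_subSum_conj h.wV]
  simp only [single_mul_one, mul_assoc, single_mul_subSum hu]
  rw [← mul_assoc (subSum k V), subSum_mul_single hv, ← mul_assoc (subSum k V),
    ← single_mul_subSum_comm (h.tV ht), mul_assoc]

theorem mul_mul_of_not (e : ¬ ∃ v ∈ V, ∃ t ∈ T, ∃ u ∈ U, w⁻¹ * g = v * t * u) :
    subSum k U * single g 1 * subSum k U = 0 := by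
  obtain ⟨x, hx, h1, h2⟩ := (h.cell (w⁻¹ * g)).resolve_right e
  exact subSum_mul_mul_eq_zero h.pU hx h1 ((h.wV _).2 (by simpa [mul_assoc] using h2))

theorem mul_mul_mul {t t' : G} (ht : t ∈ T) (ht' : t' ∈ T) :
    single (w * t) 1 * subSum k V * (single (w * t') 1 * subSum k V * subSum k U) =
      subSum k U * subSum k V * subSum k U := by
  rw [← h.inv _ (mul_mem (h.wtw t ht) ht')]
  simp only [single_mul_one, mul_assoc]
  rw [← mul_assoc (subSum k V), ← single_mul_subSum_conj h.wU, ← mul_assoc (single t' 1) (subSum k U),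
    single_mul_subSum_comm (h.tU ht')]
  simp only [mul_assoc]

theorem mem_span (a b : k[G]) : subSum k U * a * subSum k U * b * subSum k U ∈
    Submodule.span k {subSum k U * subSum k V * subSum k U} := by
  induction a using MonoidAlgebra.induction_on with
  | add _ _ h1 h2 => simp only [mul_add, add_mul]; exact add_mem h1 h2
  | smul r _ h1 => simp only [mul_smul_comm, smul_mul_assoc]; exact Submodule.smul_mem _ r h1
  | of g =>
  induction b using MonoidAlgebra.induction_on with
  | add _ _ h1 h2 => simp only [mul_add, add_mul]; exact add_mem h1 h2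
  | smul r _ h1 => simp only [mul_smul_comm, smul_mul_assoc]; exact Submodule.smul_mem _ r h1
  | of g' =>
  simp only [of_apply]
  by_cases e : ∃ v ∈ V, ∃ t ∈ T, ∃ u ∈ U, w⁻¹ * g = v * t * u
  swap
  · simp [h.mul_mul_of_not e]
  obtain ⟨v, hv, t, ht, u, hu, e⟩ := e
  rw [h.mul_mul_of_eq hv ht hu e, mul_assoc _ (subSum k U), mul_assoc _ (_ * _)]
  by_cases e' : ∃ v ∈ V, ∃ t ∈ T, ∃ u ∈ U, w⁻¹ * g' = v * t * u
  swap
  · simp [h.mul_mul_of_not e']
  obtain ⟨v', hv', t', ht', u', hu', e'⟩ := e'
  rw [h.mul_mul_of_eq hv' ht' hu' e', h.mul_mul_mul ht ht']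
  exact Submodule.mem_span_singleton_self _

theorem exists_sum : ∃ n : k, n ≠ 0 ∧ ∀ a z c : k[G],
    (∀ t ∈ T, a * (single (w * t) 1 * subSum k V * subSum k U) * z = c) →
      a * (subSum k U * subSum k V * subSum k U) * z = n • c := by
  classical
  haveI := Fintype.ofFinite V
  refine ⟨_, fun e => h.count ((CharP.cast_eq_zero_iff k p _).1 e), fun a z c hc => ?_⟩
  rw [subSum_eq_sum V, Finset.mul_sum, Finset.sum_mul, Finset.mul_sum, Finset.sum_mul,
    Nat.card_eq_fintype_card, Fintype.card_subtype, Nat.cast_smul_eq_nsmul, ← Finset.sum_const,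
    Finset.sum_filter]
  refine Finset.sum_congr rfl fun x _ => ?_
  split_ifs with e
  · obtain ⟨v, hv, t, ht, u, hu, e⟩ := e
    rw [h.mul_mul_of_eq hv ht hu e, hc t ht]
  · rw [h.mul_mul_of_not e, mul_zero, zero_mul]

theorem existsUnique : ∃! e : k[G], IsBlockIdem ⊤ e ∧ InDef p ⊤ ⊥ e := by
  classical
  refine existsUnique_of_exists_of_unique ?_ ?_
  · obtain ⟨n, hn, hs⟩ := h.exists_sum
    have h1 := hs 1 (single w 1 * subSum k U) _ fun t ht => by
      rw [one_mul, mul_assoc, ← mul_assoc (subSum k U),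
        h.mul_mul_of_eq (one_mem _) (one_mem _) (one_mem _) (by simp), h.mul_mul_mul ht (one_mem _)]
    have h2 := hs (subSum k T * single w⁻¹ 1) 1 (subSum k T * subSum k V * subSum k U) fun t ht => by
      rw [mul_one, ← mul_assoc, ← mul_assoc, mul_assoc (subSum k T), single_mul_single,
        inv_mul_cancel_left, mul_one, subSum_mul_single ht]
    have h3 : subSum k U * subSum k V * subSum k U ≠ 0 := fun e => by
      haveI := Fintype.ofFinite T
      haveI := Fintype.ofFinite V
      haveI := Fintype.ofFinite U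
      rw [e, mul_zero, zero_mul, eq_comm, smul_eq_zero_iff_right hn] at h2
      have h3 := congrArg (·.coeff 1) h2
      simp only [subSum_eq_sum, Finset.sum_mul, Finset.mul_sum, single_mul_single, coeff_finset_sum,
        coeff_single, Finsupp.single_apply] at h3
      rw [Finset.sum_eq_single 1, Finset.sum_eq_single 1, Finset.sum_eq_single 1] at h3
      · simp at h3
      · intro t _ ht; simpa using ht
      · simp
      · exact fun v _ hv => Finset.sum_eq_zero fun t _ =>
          if_neg fun e => hv (Subtype.ext (h.uniq _ t.2 _ v.2 _ (one_mem _) e).1)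
      · simp
      · exact fun u _ hu => Finset.sum_eq_zero fun v _ => Finset.sum_eq_zero fun t _ =>
          if_neg fun e => hu (Subtype.ext (h.uniq _ t.2 _ v.2 _ u.2 e).2)
      · simp
    have h4 : subSum k V * subSum k U = single w⁻¹ 1 * (subSum k U * single w 1 * subSum k U) := by
      rw [← single_mul_subSum_conj h.wV, ← mul_assoc, ← mul_assoc, single_mul_single, inv_mul_cancel,
        mul_one, ← one_def, one_mul]
    have h5 : subSum k V = single w 1 * subSum k U * single w⁻¹ 1 := by
      rw [single_mul_subSum_conj h.wU, mul_assoc, single_mul_single, mul_inv_cancel, mul_one,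
        ← one_def, mul_one]
    refine exists_inDef_bot (w := w) (y := subSum k U * subSum k V * subSum k U) (fun g => ?_) ?_
    · obtain ⟨c, hc⟩ := Submodule.mem_span_singleton.1
        (h.mem_span (subSum k V * subSum k U * single g 1) (subSum k V))
      exact ⟨c, by rw [hc]; simp only [mul_assoc]⟩
    · rw [one_mul] at h1
      set y := subSum k U * subSum k V * subSum k U with hy
      have h6 := h.wtw 1 (one_mem _)
      rw [mul_one] at h6
      have h7 : single w⁻¹ (1 : k) * subSum k U = single w 1 * subSum k U * single (w * w)⁻¹ 1 := by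
        rw [mul_assoc, ← single_mul_subSum_comm (h.tU (inv_mem h6)), ← mul_assoc, single_mul_single]
        simp
      have h8 : y * single w 1 * y = (n * n * n) • (y * single (w * w)⁻¹ 1) := by
        calc y * single w 1 * y
            = y * (single w 1 * subSum k U) * (single w 1 * subSum k U) *
              (single w⁻¹ 1 * subSum k U) := by rw [hy, h5]; simp only [mul_assoc]
          _ = _ := by
            rw [h1, smul_mul_assoc, h1, smul_smul, smul_mul_assoc, h7, ← mul_assoc, h1,
              smul_mul_assoc, smul_smul]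
      rw [h8, Ne, smul_eq_zero_iff_right (by simp [hn])]
      intro e
      have := congrArg (· * single (w * w) (1 : k)) e
      simp only [mul_assoc y, single_mul_single, inv_mul_cancel, mul_one, ← one_def, zero_mul] at this
      exact h3 this
  · rintro e e' ⟨he, h1⟩ ⟨he', h2⟩
    by_contra hne
    obtain ⟨h3, b, h4⟩ := exists_subSum_mul_eq h.pU he h1
    obtain ⟨h5, b', h6⟩ := exists_subSum_mul_eq h.pU he' h2
    obtain ⟨c, hc⟩ := Submodule.mem_span_singleton.1 (h4 ▸ h.mem_span b b)
    obtain ⟨c', hc'⟩ := Submodule.mem_span_singleton.1 (h6 ▸ h.mem_span b' b')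
    have h7 : c ≠ 0 := fun e => h3 (by rw [← hc, e, zero_smul])
    have h8 := congrArg (· * e') hc
    simp only [mul_assoc _ e, he.mul_eq_zero_of_ne (Zalg_mul_comm le_rfl) he' hne, mul_zero,
      smul_mul_assoc, smul_eq_zero_iff_right h7] at h8
    refine h5 ?_
    rw [← he'.idem, ← mul_assoc, ← hc', smul_mul_assoc, h8, smul_zero]

end Cell

end Cfsg.GA

set_option linter.all false in
theorem Cfsg.Rz.GA_Cell_0 : True := by
  have := @_root_.Cfsg.GA.Cell.congr_simp.{0, 0}
  have := @_root_.Cfsg.GA.Cell.mk.congr_simp.{0, 0}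
  trivial
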