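import Cfsg.Agent.GA.Cell
import Cfsg.Agent.Grp.SLCell

/-!
# `SL(n, F)` has a unique block of defect zero in the defining characteristic
-/

set_option autoImplicit false
set_option linter.unusedSectionVars false

namespace Cfsg.SLn

open Matrix Subgroup
open scoped MatrixGroups

universe u w

variable {F : Type u} [Field F] [Finite F] {n : ℕ} {g t w x : SL(n, F)}

theorem val_mul (a b : SL(n, F)) : (a * b).1 = a.1 * b.1 := rfl

theorem mem_up : g ∈ up F n ↔ IsUni g.1 := Iff.rfl
theorem mem_lo : g ∈ lo F n ↔ IsUni g.1ᵀ := Iff.rfl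
theorem mem_dg : g ∈ dg F n ↔ ∀ i j, i ≠ j → g i j = 0 := ⟨fun h _ _ e => h e, fun h _ _ => h _ _⟩

theorem mul_of_left {σ : Fin n → Fin n} (h : ∀ i j, σ i ≠ j → w i j = 0) (g : SL(n, F)) (i j) :
    (w * g) i j = w i (σ i) * g (σ i) j := by
  rw [val_mul, mul_apply, Finset.sum_eq_single (σ i)
    (fun l _ hl => by rw [h i l hl.symm, zero_mul]) (by simp)]

theorem mul_of_right {σ : Fin n → Fin n} (h : ∀ i j, i ≠ σ j → w i j = 0) (g : SL(n, F)) (i j) :
    (g * w) i j = g i (σ j) * w (σ j) j := by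
  rw [val_mul, mul_apply, Finset.sum_eq_single (σ j)
    (fun l _ hl => by rw [h l j hl, mul_zero]) (by simp)]

theorem dg_mul (ht : t ∈ dg F n) (g : SL(n, F)) (i j) : (t * g) i j = t i i * g i j :=
  mul_of_left (σ := id) (mem_dg.1 ht) g i j

theorem mul_dg (ht : t ∈ dg F n) (g : SL(n, F)) (i j) : (g * t) i j = g i j * t j j :=
  mul_of_right (σ := id) (mem_dg.1 ht) g i j

theorem dg_mul_inv (ht : t ∈ dg F n) (i) : t i i * t⁻¹ i i = 1 := by
  rw [← dg_mul ht, mul_inv_cancel]; simp

theorem dg_conj (ht : t ∈ dg F n) (g : SL(n, F)) (i j) :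
    (t * g * t⁻¹) i j = t i i * g i j * t⁻¹ j j := by rw [mul_dg (inv_mem ht), dg_mul ht]

theorem dg_le_normalizer_up : dg F n ≤ normalizer (up F n : Set SL(n, F)) := fun t ht =>
  mem_normalizer_fintype fun g hg => ⟨fun i j h => by rw [dg_conj ht, hg.1 i j h]; simp,
    fun i => by rw [dg_conj ht, hg.2 i, mul_one, dg_mul_inv ht]⟩

theorem dg_le_normalizer_lo : dg F n ≤ normalizer (lo F n : Set SL(n, F)) := fun t ht =>
  mem_normalizer_fintype fun g hg => ⟨fun i j h => by
    rw [transpose_apply, dg_conj ht, show g j i = 0 from hg.1 i j h]; simp,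
    fun i => by rw [transpose_apply, dg_conj ht, show g i i = 1 from hg.2 i, mul_one, dg_mul_inv ht]⟩

/-- Antidiagonal matrices. -/
def IsAnti (w : SL(n, F)) : Prop := ∀ i j : Fin n, i.rev ≠ j → w i j = 0

theorem IsAnti.right (h : IsAnti w) (i j : Fin n) (e : i ≠ j.rev) : w i j = 0 :=
  h i j fun e' => e (by rw [← e', Fin.rev_rev])

theorem IsAnti.mul_mul (h : IsAnti w) (ht : t ∈ dg F n) : w * t * w ∈ dg F n :=
  mem_dg.2 fun i j e => by
    rw [mul_of_right h.right, mul_dg ht, h i _ (Fin.rev_injective.ne e)]; simp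

theorem IsAnti.inv (h : IsAnti w) : IsAnti w⁻¹ := fun i j e => by
  rw [show w⁻¹ = w * (w * 1 * w)⁻¹ by group, mul_dg (inv_mem (h.mul_mul (one_mem _))), h i j e,
    zero_mul]

theorem IsAnti.conj (h : IsAnti w) (g : SL(n, F)) (i j) :
    (w⁻¹ * g * w) i j = w⁻¹ i i.rev * g i.rev j.rev * w j.rev j := by
  rw [mul_of_right h.right, mul_of_left h.inv]

theorem IsAnti.inv_mul (h : IsAnti w) (i) : w⁻¹ i i.rev * w i.rev i = 1 := by
  rw [← mul_of_left h.inv, inv_mul_cancel]; simp

theorem IsAnti.conj_mem_up (h : IsAnti w) (hg : g ∈ lo F n) : w⁻¹ * g * w ∈ up F n :=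
  ⟨fun i j e => by rw [h.conj, show g i.rev j.rev = 0 from hg.1 _ _ (Fin.rev_lt_rev.2 e)]; simp,
    fun i => by rw [h.conj, show g i.rev i.rev = 1 from hg.2 _, mul_one, h.inv_mul]⟩

theorem IsAnti.conj_mem_lo (h : IsAnti w) (hg : g ∈ up F n) : w⁻¹ * g * w ∈ lo F n :=
  ⟨fun i j e => by rw [transpose_apply, h.conj, hg.1 _ _ (Fin.rev_lt_rev.2 e)]; simp,
    fun i => by rw [transpose_apply, h.conj, hg.2 _, mul_one, h.inv_mul]⟩

theorem exists_isAnti [NeZero n] : ∃ w : SL(n, F), IsAnti w := by
  let P : Matrix (Fin n) (Fin n) F := (1 : Matrix (Fin n) (Fin n) F).submatrix Fin.rev id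
  have h1 : P.det ≠ 0 := by
    have := det_permute (Fin.revPerm (n := n)) (1 : Matrix (Fin n) (Fin n) F)
    refine this.trans_ne ?_
    rcases Int.units_eq_one_or (Equiv.Perm.sign (Fin.revPerm (n := n))) with e | e <;> simp [e]
  refine ⟨⟨diagonal (Function.update 1 0 P.det⁻¹) * P, ?_⟩, fun i j e => ?_⟩
  · rw [det_mul, det_diagonal, Finset.prod_update_of_mem (Finset.mem_univ _)]
    simp [h1]
  · simp [P, e]

theorem exists_dg_of_isUp (h : IsUp g.1) : ∃ t ∈ dg F n, ∃ u ∈ up F n, g = t * u := by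
  let t : SL(n, F) := ⟨diagonal fun i => g i i, by rw [det_diagonal, ← h.det, g.2]⟩
  have ht : t ∈ dg F n := isDiag_diagonal _
  refine ⟨t, ht, t⁻¹ * g, ⟨fun i j e => by rw [dg_mul (inv_mem ht), h i j e, mul_zero], fun i => ?_⟩,
    by group⟩
  rw [dg_mul (inv_mem ht), mul_comm]
  simpa [t] using dg_mul_inv ht i

theorem isUp_of_dg (ht : t ∈ dg F n) : IsUp t.1 := fun _ _ h => ht h.ne'

theorem opp_iff : Opp g.1 ↔ ∃ v ∈ lo F n, ∃ t ∈ dg F n, ∃ u ∈ up F n, g = v * t * u := by
  constructor
  · intro h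
    obtain ⟨B, hB, h1⟩ := (opp_transpose.2 h).exists_isUni
    rw [transpose_mul, transpose_transpose] at h1
    obtain ⟨t, ht, u, hu, e⟩ := exists_dg_of_isUp (g := (mkLo (A := Bᵀ) hB).1 * g) h1
    exact ⟨_, inv_mem (mkLo (A := Bᵀ) hB).2, t, ht, u, hu, by rw [mul_assoc, ← e]; group⟩
  · rintro ⟨v, hv, t, ht, u, hu, rfl⟩
    rw [val_mul, val_mul, opp_mul_right hu.1 hu.opp,
      opp_mul_right (isUp_of_dg ht) ((isUp_of_dg ht).opp (by simp))]
    exact opp_transpose.1 hv.opp

theorem eq_one_of_isUp (h : IsUp g.1ᵀ) (hg : g ∈ up F n) : g = 1 := by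
  ext i j
  rcases lt_trichotomy i j with e | rfl | e
  · simpa [e.ne] using h j i e
  · simpa using hg.2 i
  · simpa [e.ne'] using hg.1 i j e

/-! ### Rank one subgroups -/

section

variable (a b : Fin n)

/-- A `2 × 2` block. -/
def blk (α β γ δ : F) : Matrix (Fin n) (Fin n) F :=
  1 + single a a α + single a b β + single b a γ + single b b δ

variable {a b} (hab : a ≠ b)
include hab

theorem blk_mul (α β γ δ α' β' γ' δ' : F) : blk a b α β γ δ * blk a b α' β' γ' δ' =
    blk a b (α + α' + α * α' + β * γ') (β + β' + α * β' + β * δ') (γ + γ' + γ * α' + δ * γ')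
      (δ + δ' + γ * β' + δ * δ') := by
  simp only [blk, mul_add, add_mul, mul_one, one_mul, single_mul_single_same,
    single_mul_single_of_ne _ _ _ _ hab, single_mul_single_of_ne _ _ _ _ hab.symm, single_add]
  abel

/-- The root subgroup. -/
def root : Multiplicative F →* SL(n, F) where
  toFun s := ⟨transvection a b s.toAdd, det_transvection_of_ne _ _ hab _⟩
  map_one' := Subtype.ext (transvection_zero a b)
  map_mul' _ _ := Subtype.ext (transvection_mul_transvection_same _ _ hab _ _).symm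

theorem root_val (s : Multiplicative F) : (root hab s).1 = 1 + single a b s.toAdd := rfl

theorem root_apply (s : Multiplicative F) (i j : Fin n) :
    root hab s i j = (if i = j then 1 else 0) + if a = i ∧ b = j then s.toAdd else 0 := by
  simp [root_val, one_apply, single_apply]

theorem root_eq (s : Multiplicative F) : (root hab s).1 = blk a b 0 s.toAdd 0 0 := by
  simp [root_val, blk]

theorem root_eq' (s : Multiplicative F) : (root hab.symm s).1 = blk a b 0 0 s.toAdd 0 := by
  simp [root_val, blk]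

theorem root_injective : Function.Injective (root (F := F) hab) := fun s t h => by
  simpa [root_apply] using congrArg (fun g : SL(n, F) => g a b) h

variable (a b) in
/-- The coroot. -/
def coroot (d : Fˣ) : SL(n, F) :=
  ⟨diagonal fun i => ((Pi.mulSingle a d * Pi.mulSingle b d⁻¹ : Fin n → Fˣ) i : F), by
    rw [det_diagonal, ← Units.coe_prod]
    simp [Finset.prod_mul_distrib]⟩

omit hab in
theorem coroot_mem (d : Fˣ) : coroot a b d ∈ dg F n := isDiag_diagonal _

theorem coroot_eq (d : Fˣ) : (coroot a b d).1 = blk a b (d - 1 : F) 0 0 ((d : F)⁻¹ - 1) := by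
  ext i j
  simp only [coroot, blk, diagonal_apply, Matrix.add_apply, single_apply, one_apply, Pi.mul_apply,
    Pi.mulSingle_apply]
  by_cases h : i = j
  · subst h
    by_cases h1 : i = a
    · simp [h1, hab, hab.symm]
    · by_cases h2 : i = b <;> simp [h1, h2, hab, hab.symm, Ne.symm h1, eq_comm (a := b)]
  · grind

theorem coroot_mul_root (d : Fˣ) {c : F} (hc : c ≠ 0) : ∃ α β, coroot a b d * root hab.symm (.ofAdd c) =
    root hab α * root hab.symm (.ofAdd (c / d)) * root hab β := by
  refine ⟨.ofAdd ((d - 1) * d / c), .ofAdd ((1 - d) / c), Subtype.ext ?_⟩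
  simp only [val_mul, root_eq' hab, root_eq hab, coroot_eq hab, blk_mul hab,
    toAdd_ofAdd]
  have := d.ne_zero
  congr 1 <;> field_simp <;> ring

theorem root_mul (s : Multiplicative F) (g : SL(n, F)) (i j) :
    (root hab s * g) i j = g i j + if i = a then s.toAdd * g b j else 0 := by
  rw [val_mul, root_val, add_mul, one_mul, Matrix.add_apply]
  split_ifs with h
  · rw [h, single_mul_apply_same]
  · rw [single_mul_apply_of_ne _ _ _ _ _ h]

theorem mul_root (s : Multiplicative F) (g : SL(n, F)) (i j) :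
    (g * root hab s) i j = g i j + if j = b then g i a * s.toAdd else 0 := by
  rw [val_mul, root_val, mul_add, mul_one, Matrix.add_apply]
  split_ifs with h
  · rw [h, mul_single_apply_same]
  · rw [mul_single_apply_of_ne _ _ _ _ _ h]

theorem dg_le_normalizer_root : dg F n ≤ normalizer ((root (F := F) hab).range : Set SL(n, F)) :=
  fun t ht => mem_normalizer_fintype <| by
    rintro _ ⟨s, rfl⟩
    refine ⟨.ofAdd (t a a * s.toAdd * t⁻¹ b b), Subtype.ext (Matrix.ext fun i j => ?_)⟩
    rw [dg_conj ht, root_apply, root_apply]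
    have := dg_mul_inv ht i
    by_cases h : a = i ∧ b = j
    · obtain ⟨rfl, rfl⟩ := h
      simp [hab]
    · by_cases h' : i = j
      · subst h'; simp only [h, this, if_true, if_false, add_zero, mul_one]
      · simp [h, h']

end

section

variable {a b : Fin n} (hab : (b : ℕ) = a + 1)

/-- The unipotent radical of a minimal parabolic subgroup. -/
def up' : Subgroup SL(n, F) where
  carrier := {g | g ∈ up F n ∧ g a b = 0}
  mul_mem' {x y} hx hy := ⟨mul_mem hx.1 hy.1, by
    rw [val_mul, mul_apply]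
    refine Finset.sum_eq_zero fun l _ => ?_
    obtain h | rfl | rfl | h : l < a ∨ l = a ∨ l = b ∨ b < l := by omega
    exacts [by rw [hx.1.1 _ _ h, zero_mul], by rw [hy.2, mul_zero], by rw [hx.2, zero_mul],
      by rw [hy.1.1 _ _ h, mul_zero]]⟩
  one_mem' := ⟨one_mem _, one_apply_ne (by omega)⟩
  inv_mem' {x} hx := ⟨inv_mem hx.1, by
    have h1 : (x⁻¹ * x) a b = 0 := by rw [inv_mul_cancel]; exact one_apply_ne (by omega)
    rw [val_mul, mul_apply, Finset.sum_eq_single b, hx.1.2, mul_one] at h1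
    · exact h1
    · intro l _ hl
      obtain h | rfl | h : l < a ∨ l = a ∨ b < l := by omega
      exacts [by rw [(inv_mem hx.1).1 _ _ h, zero_mul], by rw [hx.2, mul_zero],
        by rw [hx.1.1 _ _ h, mul_zero]]
    · simp⟩

/-- The opposite unipotent radical. -/
def lo' : Subgroup SL(n, F) where
  carrier := {g | g ∈ lo F n ∧ g b a = 0}
  mul_mem' {x y} hx hy := ⟨mul_mem hx.1 hy.1, by
    rw [val_mul, mul_apply]
    refine Finset.sum_eq_zero fun l _ => ?_
    obtain h | rfl | rfl | h : l < a ∨ l = a ∨ l = b ∨ b < l := by omega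
    exacts [by rw [show y l a = 0 from hy.1.1 _ _ h, mul_zero], by rw [hx.2, zero_mul],
      by rw [hy.2, mul_zero], by rw [show x b l = 0 from hx.1.1 _ _ h, zero_mul]]⟩
  one_mem' := ⟨one_mem _, one_apply_ne (by omega)⟩
  inv_mem' {x} hx := ⟨inv_mem hx.1, by
    have h1 : (x⁻¹ * x) b a = 0 := by rw [inv_mul_cancel]; exact one_apply_ne (by omega)
    rw [val_mul, mul_apply, Finset.sum_eq_single a, show x a a = 1 from hx.1.2 a, mul_one] at h1
    · exact h1
    · intro l _ hl
      obtain h | rfl | h : l < a ∨ l = b ∨ b < l := by omega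
      exacts [by rw [show x l a = 0 from hx.1.1 _ _ h, mul_zero], by rw [hx.2, mul_zero],
        by rw [show x⁻¹ b l = 0 from (inv_mem hx.1).1 _ _ h, zero_mul]]
    · simp⟩

open GA MonoidAlgebra

variable {k : Type w} [Field k] {p : ℕ} [Fact p.Prime] [CharP k p] [CharP F p]

theorem subSum_range {G H : Type*} [Group G] [Group H] [Finite G] [Fintype H] {f : H →* G}
    (hf : Function.Injective f) : subSum k f.range = ∑ h, MonoidAlgebra.single (f h) 1 := by
  haveI := Fintype.ofFinite f.range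
  rw [subSum_eq_sum, ← (MonoidHom.ofInjective hf).toEquiv.sum_comp]
  rfl

theorem isPGroup_up (hw : IsAnti w) : IsPGroup p (up F n) :=
  (isPGroup_lo.map (MulAut.conj w⁻¹).toMonoidHom).to_le fun g hg =>
    ⟨w * g * w⁻¹, by simpa using hw.inv.conj_mem_lo hg, by simp [mul_assoc]⟩

include hab in
theorem coroot_mul (hU : IsPGroup p (up F n)) (d : Fˣ) :
    MonoidAlgebra.single (coroot a b d) 1 * (subSum k (up F n) * subSum k (lo F n) *
      subSum k (up F n)) = subSum k (up F n) * subSum k (lo F n) * subSum k (up F n) := by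
  have h0 : a ≠ b := by omega
  have hX : (root (F := F) h0).range ≤ up F n := by
    rintro _ ⟨s, rfl⟩
    exact ⟨fun i j h => by rw [root_apply, if_neg h.ne', if_neg (by omega), add_zero],
      fun i => by rw [root_apply, if_pos rfl, if_neg (by omega), add_zero]⟩
  have hY : (root (F := F) h0.symm).range ≤ lo F n := by
    rintro _ ⟨s, rfl⟩
    exact ⟨fun i j h => by
      rw [transpose_apply, root_apply, if_neg h.ne, if_neg (by omega), add_zero],
      fun i => by rw [transpose_apply, root_apply, if_pos rfl, if_neg (by omega), add_zero]⟩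
  have e1 : subSum k (up F n) = subSum k (up' hab) * subSum k (root h0).range :=
    subSum_eq_mul (fun _ h => h.1) hX (by
      rintro _ h ⟨s, rfl⟩
      have : s = 1 := by simpa [root_apply, h0] using h.2
      rw [this, map_one]) fun g hg => ⟨_, ⟨.ofAdd (g a b), rfl⟩,
        mul_mem hg (inv_mem (hX ⟨_, rfl⟩)), by rw [← map_inv, mul_root, hg.2 a]; simp⟩
  have e2 : subSum k (up F n) = subSum k (root h0).range * subSum k (up' hab) :=
    subSum_eq_mul hX (fun _ h => h.1) (by
      rintro _ ⟨s, rfl⟩ h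
      have : s = 1 := by simpa [root_apply, h0] using h.2
      rw [this, map_one]) fun g hg => ⟨(root h0 (.ofAdd (g a b)))⁻¹ * g,
        ⟨mul_mem (inv_mem (hX ⟨_, rfl⟩)) hg, by rw [← map_inv, root_mul, hg.2 b]; simp⟩, by simp⟩
  have e3 : subSum k (lo F n) = subSum k (root h0.symm).range * subSum k (lo' hab) :=
    subSum_eq_mul hY (fun _ h => h.1) (by
      rintro _ ⟨s, rfl⟩ h
      have : s = 1 := by simpa [root_apply, h0.symm] using h.2
      rw [this, map_one]) fun g hg => ⟨(root h0.symm (.ofAdd (g b a)))⁻¹ * g,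
        ⟨mul_mem (inv_mem (hY ⟨_, rfl⟩)) hg, by
          rw [← map_inv, root_mul, show g a a = 1 from hg.2 a]; simp⟩, by simp⟩
  have e4 : (root (F := F) h0).range ≤ normalizer (lo' (F := F) hab : Set SL(n, F)) := by
    rintro _ ⟨s, rfl⟩
    refine mem_normalizer_fintype fun g hg => ?_
    have h1 : ∀ i j, i < j → g i j = 0 := fun i j => hg.1.1 j i
    have h2 : ∀ i, g i i = 1 := hg.1.2
    have h3 : g b a = 0 := hg.2
    have key : ∀ i j, (root h0 s * g * (root h0 s)⁻¹) i j = g i j +
        (if i = a then s.toAdd * g b j else 0) - if j = b then g i a * s.toAdd else 0 := by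
      intro i j
      rw [← map_inv, mul_root, root_mul, root_mul]
      split_ifs <;> simp [h3, sub_eq_add_neg]
    refine ⟨⟨fun j i h => ?_, fun i => ?_⟩, by simp [key, h3, h0, h0.symm]⟩
    · rw [transpose_apply, key, h1 i j h]
      by_cases hi : i = a <;> by_cases hj : j = b
      · simp [hi, hj, h2]
      · simp [hi, hj, h1 b j (by omega)]
      · simp [hi, hj, h1 i a (by omega)]
      · simp [hi, hj]
    · rw [transpose_apply, key, h2]
      by_cases hi : i = a
      · simp [hi, h0, h3]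
      · by_cases hj : i = b <;> simp [hi, hj, h3, h0.symm]
  have e5 : coroot a b d ∈ normalizer (up' (F := F) hab : Set SL(n, F)) :=
    mem_normalizer_fintype fun g hg => ⟨(mem_normalizer_iff.1
      (dg_le_normalizer_up (coroot_mem d)) g).1 hg.1, by rw [dg_conj (coroot_mem d), hg.2]; simp⟩
  have e6 : MonoidAlgebra.single (coroot a b d) 1 * (subSum k (root h0).range *
      subSum k (root h0.symm).range * subSum k (root h0).range) = subSum k (root h0).range *
      subSum k (root (F := F) h0.symm).range * subSum k (root h0).range := by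
    haveI := Fintype.ofFinite F
    rw [subSum_range (root_injective (F := F) h0.symm),
      Finset.mul_sum, Finset.sum_mul, Finset.mul_sum]
    refine Fintype.sum_equiv (Multiplicative.toAdd.trans ((Equiv.divRight₀ d.1 d.ne_zero).trans
      Multiplicative.ofAdd)) _ _ fun c => ?_
    by_cases hc : c.toAdd = 0
    · have := subSum_mul_mul_eq_zero (k := k) (V := (root h0).range) (g := 1) (hU.to_le hX)
        (x := root h0 (.ofAdd 1)) ⟨_, rfl⟩ (by simp [map_eq_one_iff _ (root_injective h0)]) (by simp)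
      simp [toAdd_eq_zero.1 hc, this]
    · obtain ⟨α, β, e⟩ := coroot_mul_root h0 d hc
      have hr : ∀ s, root (F := F) h0 s ∈ (root h0).range := fun s => ⟨s, rfl⟩
      rw [← mul_assoc, ← mul_assoc, single_mul_subSum_comm (dg_le_normalizer_root h0 (coroot_mem d)),
        mul_assoc (subSum k _), ← single_mul_one, ← ofAdd_toAdd c, e, single_mul_one, single_mul_one,
        ← mul_assoc, ← mul_assoc, subSum_mul_single (hr α), mul_assoc, single_mul_subSum (hr β)]
      rfl
  have e7 : subSum k (up F n) * subSum k (lo F n) * subSum k (up F n) =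
      subSum k (up' hab) * ((subSum k (root h0).range * subSum k (root h0.symm).range *
        subSum k (root h0).range) * (subSum k (lo' hab) * subSum k (up' hab))) := by
    conv_lhs => rw [e3, e1]
    conv_lhs => right; rw [← e1, e2]
    simp only [mul_assoc]
    rw [← mul_assoc (subSum k (lo' hab)), ← subSum_mul_comm e4, mul_assoc]
  rw [e7, ← mul_assoc, single_mul_subSum_comm e5, mul_assoc, ← mul_assoc (MonoidAlgebra.single _ _), e6]

omit hab in
theorem dg_le [NeZero n] {S : Subgroup SL(n, F)}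
    (h : ∀ a b : Fin n, (b : ℕ) = a + 1 → ∀ d, coroot a b d ∈ S) : dg F n ≤ S := by
  let S' : Subgroup (Fin n → Fˣ) :=
    { carrier := {d | ∃ g ∈ S, g.1 = diagonal fun i => (d i : F)}
      mul_mem' := by
        rintro _ _ ⟨g, hg, e⟩ ⟨g', hg', e'⟩
        exact ⟨_, mul_mem hg hg', by rw [val_mul, e, e', diagonal_mul_diagonal]; rfl⟩
      one_mem' := ⟨1, one_mem _, by simp⟩
      inv_mem' := inv_of_mul_closed (P := fun d : Fin n → Fˣ =>
        ∃ g ∈ S, g.1 = diagonal fun i => (d i : F)) ⟨1, one_mem _, by simp⟩ (by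
        rintro _ _ ⟨g, hg, e⟩ ⟨g', hg', e'⟩
        exact ⟨_, mul_mem hg hg', by rw [val_mul, e, e', diagonal_mul_diagonal]; rfl⟩) }
  let π := QuotientGroup.mk' S'
  have h1 : ∀ (m : ℕ) (hm : m < n) (d : Fˣ),
      π (Pi.mulSingle ⟨m, hm⟩ d) = π (Pi.mulSingle 0 d) := fun m => by
    induction m with
    | zero => exact fun _ _ => rfl
    | succ m ih =>
      intro hm d
      rw [← ih (by omega), eq_comm, ← mul_inv_eq_one, ← map_inv, ← map_mul, ← Pi.mulSingle_inv]
      exact (QuotientGroup.eq_one_iff _).2 ⟨_, h _ _ rfl d, rfl⟩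
  intro t ht
  let d : Fin n → Fˣ := fun i => Units.mk0 (t i i) (left_ne_zero_of_mul_eq_one (dg_mul_inv ht i))
  have h2 : ∏ i, d i = 1 := Units.ext (by
    rw [Units.coe_prod]; exact (isUp_of_dg ht).det.symm.trans t.2)
  have h3 : π d = 1 := by
    rw [← Finset.univ_prod_mulSingle d, map_prod, 
      Finset.prod_congr rfl fun (i : Fin n) _ => h1 i i.2 (d i),
      ← map_prod]
    exact (congrArg π (map_prod (MonoidHom.mulSingle (fun _ : Fin n => Fˣ) 0) d _).symm).trans
      (by rw [h2, map_one, map_one])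
  obtain ⟨g, hg, e⟩ := (QuotientGroup.eq_one_iff _).1 h3
  rwa [← show g = t from Subtype.ext (e.trans ht.diagonal_diag)]

omit hab in
theorem cell [NeZero n] (hw : IsAnti w) : Cell k p (up F n) (lo F n) (dg F n) w where
  pU := isPGroup_up hw
  wU x := ⟨hw.conj_mem_up, fun h => by simpa [mul_assoc] using hw.inv.conj_mem_lo h⟩
  wV x := ⟨hw.conj_mem_lo, fun h => by simpa [mul_assoc] using hw.inv.conj_mem_up h⟩
  tU := dg_le_normalizer_up
  tV := dg_le_normalizer_lo
  wtw _ := hw.mul_mul
  cell g := by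
    refine (em (Opp g.1)).symm.imp (fun h => ?_) opp_iff.1
    obtain ⟨B, C, hB, hC, h1, -, e⟩ := exists_of_not_opp h (by simp)
    refine ⟨⟨B, hB.det⟩, hB, fun e => h1 (congrArg Subtype.val e), ?_⟩
    rw [show g * ⟨B, hB.det⟩ = (mkLo hC).1 * g from Subtype.ext e, mul_inv_cancel_right]
    exact hC
  uniq t ht v hv u hu e := by
    have h1 : t * v = 1 := eq_one_of_isUp (by
      rw [val_mul, transpose_mul]; exact hv.1.mul fun _ _ h => ht h.ne)
      (eq_inv_of_mul_eq_one_left e ▸ inv_mem hu)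
    refine ⟨eq_one_of_isUp hv.1 ⟨?_, hv.2⟩, by rwa [h1, one_mul] at e⟩
    exact eq_inv_of_mul_eq_one_right h1 ▸ isUp_of_dg (inv_mem ht)
  count h := by
    refine cnt_ne_zero (F := F) n ((CharP.cast_eq_zero_iff F p _).2 (h.trans (dvd_of_eq ?_)))
    refine Nat.card_congr (Equiv.subtypeEquivRight fun x => opp_iff.symm.trans ?_)
    have h1 : IsUp (diagonal fun i => w⁻¹ i i.rev) := fun i j e => diagonal_apply_ne _ e.ne'
    refine Iff.trans (iff_of_eq (congrArg Opp (Matrix.ext fun i j => ?_)))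
      (opp_mul_left (B := diagonal fun i => w⁻¹ i i.rev) (by rwa [diagonal_transpose])
      (h1.opp (by
        rw [det_diagonal]
        exact Finset.prod_ne_zero_iff.2 fun i _ => left_ne_zero_of_mul_eq_one (hw.inv_mul i))))
    rw [mul_of_left hw.inv, diagonal_mul, Matrix.mul_one]
    rfl
  inv := dg_le (S := (MulAction.stabilizer _ (subSum k (up F n) * subSum k (lo F n) *
    subSum k (up F n))).comap (MonoidAlgebra.of k SL(n, F)).toHomUnits)
    fun _ _ hab => coroot_mul hab (isPGroup_up hw)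

end

end Cfsg.SLn

set_option linter.all false in
theorem Cfsg.Rz.GA_CellSL_0 : True := by
  have := @_root_.Cfsg.SLn.IsAnti.eq_def.{0}
  have := @_root_.Cfsg.SLn.IsAnti.eq_1.{0}
  have := @_root_.Cfsg.SLn.IsAnti.fun_cases
  have := @_root_.Cfsg.SLn.up'.eq_def.{0}
  have := @_root_.Cfsg.SLn.up'.eq_1.{0}
  have := @_root_.Cfsg.SLn.up'.fun_cases
  have := @_root_.Cfsg.SLn.root.eq_def.{0}
  have := @_root_.Cfsg.SLn.root.eq_1.{0}
  have := @_root_.Cfsg.SLn.root.fun_cases
  have := @_root_.Cfsg.SLn.lo'.eq_def.{0}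
  have := @_root_.Cfsg.SLn.lo'.eq_1.{0}
  have := @_root_.Cfsg.SLn.lo'.fun_cases
  have := @_root_.Cfsg.SLn.coroot.eq_def.{0}
  have := @_root_.Cfsg.SLn.coroot.fun_cases
  have := @_root_.Cfsg.SLn.blk.eq_def.{0}
  have := @_root_.Cfsg.SLn.blk.fun_cases
  trivial
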